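import Cfsg.Agent.Cam.E8.OBasic
import Cfsg.Agent.Cam.Ex.IfaceB
import Cfsg.Agent.Cam.Ex.ConnTor
import Cfsg.Agent.S1065

/-!
# S3690, the row `E₈(2)`: interface (helper81)

The mathematics is in `notes/Cam/e8q2_81.md`.  `L` has a frame `E : Fr8 2 L` with `E.q = 2`.
-/

set_option autoImplicit false
set_option linter.unusedVariables false

namespace Cfsg.Agent.Cam.E8Q

open Cfsg Cfsg.Lie Subgroup
open Cfsg.Agent.Cam.Spor Cfsg.Agent.Cam.Ex Cfsg.Agent.Cam.E8O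
open Cfsg.Agent.DS.Nt (dd Tp)
open Cfsg.Agent.KFacts.RgdChevCoord (TT)
open Cfsg.Agent.Nodes.RGDChev (vec)

/-- the Weyl group -/
abbrev W8 : Type := CoxeterMatrix.E₈.Group

/-- `φ` is an eigenvector of `w` -/
def Eg {r : ℕ} (w : W8) (φ : Lat 8 →+ ZMod r) (e : ZMod r) : Prop := ∀ a, φ (wa tE8 w a) = e * φ a

/-- the number of roots killed by `φ` -/
noncomputable def nk {r : ℕ} (φ : Lat 8 →+ ZMod r) : ℕ :=
  (Finset.univ.filter fun s : Fin chevE8.nroots => φ (vec chevE8 8 s) = 0).card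

/-- the class of order seven with centralizer of type `D₄ A₂` -/
def St7 (φ : Lat 8 →+ ZMod 7) : Prop := ∃ w : W8, ∀ a, φ (wa tE8 w a) = ((a 0 + a 5 : ℤ) : ZMod 7)

/-! ### Lattice boxes -/

/-- [L1] the classes allowed by `K1` -/
structure BoxL1 : Prop where
  five : ∀ (φ : Lat 8 →+ ZMod 5) (w : W8), φ ≠ 0 → Eg w φ 2 → K1 tE8 2 (Psi tE8 φ) → nk φ = 40
  seven : ∀ (φ : Lat 8 →+ ZMod 7) (w : W8), φ ≠ 0 → Eg w φ 2 → K1 tE8 2 (Psi tE8 φ) → St7 φ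
  big : ∀ r : ℕ, r = 11 ∨ r = 13 ∨ r = 17 ∨ r = 31 → ∀ (φ : Lat 8 →+ ZMod r) (w : W8), φ ≠ 0 → Eg w φ 2 →
    ¬ K1 tE8 2 (Psi tE8 φ)

/-- [L7a] the component `A₂` -/
def BoxL7a : Prop := ∀ X : Lat 8 →+ ZMod 7, St7 X → ∃ c c', A2c tE8 (Psi tE8 X) c c' ∧
  (∀ w : W8, Eg w X (-1) → ActA2 tE8 (wa tE8 w) (-1) c c') ∧
  ∀ w : W8, Eg w X 2 ∨ Eg w X 4 → ActA2 tE8 (wa tE8 w) 1 c c'

/-- [L7b] the triangle -/
def BoxL7b : Prop := ∀ A B : Lat 8 →+ ZMod 7, St7 A → St7 (A + B) → B ≠ 0 →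
  (∃ w ∈ WW tE8 (Psi tE8 A), Eg w B 2 ∨ Eg w B 4) → ∀ c c', A2c tE8 (Psi tE8 (A + B)) c c' → ¬ (A c = 0 ∧ A c' = 0)

/-! ### Group theory -/

/-- [Gp7] an element of order seven and an element normalizing it -/
def BoxGp7 : Prop := ∀ (U : Type) [Group U] [Finite U], IsSimpleGroup U → ¬ IsMulCommutative U → 7 ∣ Nat.card U →
  ¬ 343 ∣ Nat.card U → ∃ u v : U, orderOf u = 7 ∧ (v * u * v⁻¹ = u⁻¹ ∨ v * u * v⁻¹ = u ^ 2)

/-- [Gp3] simple `{2, 3, 5}`-groups: `A₆`; `A₅`; `U₄(2)` -/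
def BoxGp3 : Prop := Big → ∀ (U : Type) [Group U] [Finite U], IsSimpleGroup U → ¬ IsMulCommutative U →
  (∀ r : ℕ, r.Prime → r ∣ Nat.card U → r ≤ 5) → 5 ∣ Nat.card U ∧ (Nonempty (U ≃* Al 6) ∨
    (∃ y : U, orderOf y = 3 ∧ ∀ z : U, orderOf z = 3 → IsConj y z) ∨
    ∃ f : Multiplicative (Fin 3 → ZMod 3) →* U, Function.Injective f)

/-! ### The rows -/

/-- a statement on all cores in `E₈(2)` -/
def All (P : ∀ (L : Type) [Group L] (E : Fr8 2 L) (U : Type) [Group U] (τ : U →* L), Prop) : Prop :=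
  Big → ∀ (L : Type) [Group L] [Finite L] (E : Fr8 2 L), E.q = 2 → ∀ (U : Type) [Group U] [Finite U] (τ α β : U →* L)
    (R R' : Subgroup L), Core τ α β R R' → P L E U τ

/-- [G1] primes and the class of order five -/
def BoxG1 : Prop := All fun L _ E U _ τ => (∀ r : ℕ, r.Prime → r ∣ Nat.card U → r ≤ 7) ∧ ¬ 343 ∣ Nat.card U ∧
  ∀ u : U, orderOf u = 5 → dd 2 (E.ι (τ u)) = 48

/-- [G7r] no real element of order seven -/
def BoxG7r : Prop := All fun L _ E U _ τ => ∀ u v : U, orderOf u = 7 → v * u * v⁻¹ ≠ u⁻¹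

/-- [G7t] no Frobenius group of order `21` -/
def BoxG7t : Prop := All fun L _ E U _ τ => ∀ u v : U, orderOf u = 7 → v * u * v⁻¹ ≠ u ^ 2

/-- [G3] elements of order three -/
def BoxG3 : Prop := All fun L _ E U _ τ => (∃ u : U, orderOf u = 5) → (∀ u : U, orderOf u = 5 → dd 2 (E.ι (τ u)) = 48) →
  ¬ (∃ y : U, orderOf y = 3 ∧ ∀ z : U, orderOf z = 3 → IsConj y z) ∧
    ¬ ∃ f : Multiplicative (Fin 3 → ZMod 3) →* U, Function.Injective f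

/-- [Q4, helper65] the group `A₆` -/
def BoxQ4 : Prop := ∀ (U : Type) [Group U] [Finite U] (τ α β : U →* E8A.G8 (ZMod 2))
  (R R' : Subgroup (E8A.G8 (ZMod 2))), Core τ α β R R' → Nonempty (U ≃* Al 6) →
  (∀ u : U, orderOf u = 5 → dd 2 (E8A.emb0 (τ u)) = 48) → False

/-! ### Basic facts -/

variable {L : Type} [Group L] (E : Fr8 2 L)

theorem e_eq (hq : E.q = 2) : E.e = 1 := Nat.pow_right_injective le_rfl (hq.trans (pow_one 2).symm)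

/-- the standard model -/
theorem exists_std (hq : E.q = 2) : ∃ (e : L ≃* E8A.G8 (ZMod 2)) (z : Y8 2),
    ∀ x, (E8A.emb0 (e x) : Y8 2) = z⁻¹ * E.ι x * z :=
  FExt.exists_iso E H129.TorusChar.invC_E8 one_ne_zero (Or.inl rfl) (ZMod 2)
    (by rw [e_eq E hq, Nat.card_zmod, pow_one]) (S1054.result _ (by simp)) (algebraMap (ZMod 2) (kb 2))

theorem exists_std' (hq : E.q = 2) : ∃ e : L ≃* E8A.G8 (ZMod 2), ∀ x, dd 2 (E8A.emb0 (e x) : Y8 2) = dd 2 (E.ι x) := by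
  obtain ⟨e, z, h⟩ := exists_std E hq
  refine ⟨e, fun x => ?_⟩
  have h1 := DS.Nt.dd_conj z⁻¹ (E.ι x)
  rwa [inv_inv, ← h] at h1

theorem card_L (hq : E.q = 2) : Nat.card L =
    2 ^ 120 * 3 ^ 13 * 5 ^ 5 * 7 ^ 4 * 11 ^ 2 * 13 ^ 2 * 17 ^ 2 * 19 * 31 ^ 2 * 41 * 43 * 73 * 127 * 151 * 241 * 331 := by
  obtain ⟨e, -⟩ := exists_std E hq
  rw [Nat.card_congr e.toEquiv, S1065.result (F := ZMod 2) (q := 2) (ZMod.card 2)]
  norm_num

/-- the Frobenius map acts as an element of the Weyl group -/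
theorem exists_g : ∃ w : W8, ∀ a, E.g a = wa tE8 w a := by
  obtain ⟨w, hw⟩ := E.gr
  exact ⟨w, fun a => by rw [hw, sg_apply, Units.val_one, one_smul]⟩

/-- two commuting elements of odd prime order are toral in a conjugate frame -/
theorem exists_fr {r : ℕ} (hr : r.Prime) (h2 : r ≠ 2) {x y : L} (hx : x ^ r = 1) (hy : y ^ r = 1)
    (hc : x * y = y * x) : ∃ E' : Fr8 2 L, E.Cj E' ∧ E'.ι x ∈ TT chevE8 (kb 2) ∧ E'.ι y ∈ TT chevE8 (kb 2) := by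
  obtain ⟨g, h1, h3⟩ := tp8 (p := 2) hr h2 (x := E.ι x) (y := E.ι y) (by rw [← map_pow, hx, map_one])
    ⟨1, by rw [pow_one, ← map_pow, hy, map_one]⟩ (by rw [← map_mul, hc, map_mul])
  obtain ⟨E', h4, h5⟩ := E.exists_cj (Q := {x, y}) (Set.toFinite _) (g := g) (by
    rintro _ (rfl | rfl)
    exacts [h1, h3])
  exact ⟨E', h4, by rw [h5 x (Or.inl rfl)]; exact h1, by rw [h5 y (Or.inr rfl)]; exact h3⟩

theorem cj_q {E E' : Fr8 2 L} (h : E.Cj E') : E'.q = E.q := by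
  unfold Frame.q
  rw [h.1]

theorem cj_dd {E E' : Fr8 2 L} (h : E.Cj E') (x : L) : dd 2 (E'.ι x) = dd 2 (E.ι x) := by
  obtain ⟨-, z, hz⟩ := h
  have h1 := DS.Nt.dd_conj z⁻¹ (E.ι x)
  rwa [inv_inv, ← hz] at h1

end Cfsg.Agent.Cam.E8Q
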